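import Cfsg.Agent.H72.F4I.Iso.Basic
import Cfsg.Agent.R2.Spec.X1.E6.Sit
import Cfsg.Agent.H407.E6I.Num

/-!
# Identification for S3480, S3481: isolated numbers (helper407)
-/

set_option autoImplicit false
set_option linter.unusedSectionVars false

namespace Cfsg.Agent.R2.Spec.X1.E6.I4

open Cfsg.Agent.H407.E6I

open Cfsg.Agent.R2.Spec.X1.E6
open Cfsg.Agent.H72.F4I.Iso (IsoN)

/-- the isolated number of the situation -/
theorem isoN {D : Dat} {S : Type*} [Group S] (h : Sit D S) : IsoN S D.n where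
  elt := h.on
  iso := h.iso
  not_two_dvd := D.n_odd
  not_three_dvd := D.n_three
  big := by have := D.one_lt_n; omega

section ord

variable {t x j k : ℕ}

theorem pow_one_dvd (ht : t.Prime) (ht2 : t ≠ 2) (h : t ∣ x ^ 2 ^ j + 1) (hx : 1 ≤ x) (h1 : t ∣ x ^ k - 1) :
    2 ^ (j + 1) ∣ k := by
  have := Fact.mk ht
  have h2t : (2 : ZMod t) ≠ 0 := by
    have h4 : ((2 : ℕ) : ZMod t) ≠ 0 := fun h5 =>
      ht2 ((Nat.prime_dvd_prime_iff_eq ht Nat.prime_two).1 ((ZMod.natCast_eq_zero_iff 2 t).1 h5))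
    exact_mod_cast h4
  have hz : (x : ZMod t) ^ 2 ^ j = -1 := by
    have h4 := (ZMod.natCast_eq_zero_iff (x ^ 2 ^ j + 1) t).2 h
    push_cast at h4
    exact eq_neg_of_add_eq_zero_left h4
  have ho : orderOf (x : ZMod t) = 2 ^ (j + 1) := by
    have : Fact (Nat.Prime 2) := ⟨Nat.prime_two⟩
    refine orderOf_eq_prime_pow ?_ ?_
    · rw [hz]
      intro h4
      apply h2t
      linear_combination -h4
    · rw [pow_succ, pow_mul, hz]
      ring
  rw [← ho]
  refine orderOf_dvd_of_pow_eq_one ?_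
  have h4 := (ZMod.natCast_eq_zero_iff _ t).2 h1
  rw [Nat.cast_sub (Nat.one_le_pow _ _ hx)] at h4
  push_cast at h4
  exact sub_eq_zero.1 h4

theorem pow_add_dvd (ht : t.Prime) (ht2 : t ≠ 2) (h : t ∣ x ^ 2 ^ j + 1) (hx : 1 ≤ x) (h1 : t ∣ x ^ k + 1) :
    2 ^ (j + 1) ∣ 2 * k := by
  refine pow_one_dvd ht ht2 h hx ?_
  have h2 : x ^ (2 * k) - 1 = (x ^ k + 1) * (x ^ k - 1) := by
    have := Nat.sq_sub_sq (x ^ k) 1
    rw [← this]
    congr 1
    rw [mul_comm, pow_mul]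
  rw [h2]
  exact h1.mul_right _

end ord

end Cfsg.Agent.R2.Spec.X1.E6.I4
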