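import Cfsg.Agent.H72.F4I.ExcRow
import Cfsg.Agent.R2.Spec.X1.E6.I4.Base

/-!
# Identification for S3480, S3481: the rows `E₆(v)`, `²E₆(v)` (helper407)

* `num_eq` : `D.n = (v⁶ + ηv³ + 1)/(1 or 3)` only for `v = D.q`, `η = D.ε`.
* `row_E6`, `row_2E6`.
-/

set_option autoImplicit false
set_option linter.unusedSectionVars false

namespace Cfsg.Agent.R2.Spec.X1.E6.I4

open Cfsg.Agent.H407.E6I

open Cfsg Cfsg.Lie Cfsg.Agent.R2.Spec.X1.E6
open Cfsg.Agent.H72.F4I.Iso (IsoN)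

universe u

variable {D : Dat}

/-- **The number.** -/
theorem num_eq {v : ℕ} {η : ℤ} (hv : IsPrimePow v) (hη : η = 1 ∨ η = -1)
    (h : (D.n : ℤ) = (v : ℤ) ^ 6 + η * (v : ℤ) ^ 3 + 1 ∨ (3 : ℤ) * D.n = (v : ℤ) ^ 6 + η * (v : ℤ) ^ 3 + 1) :
    D.ε = η ∧ v = D.q := by
  have hn := D.hn
  rcases D.hd with hd | hd <;> rw [hd] at hn <;> rcases h with h | h
  · obtain ⟨h1, h2⟩ := same D.two_le hv.two_le D.eps hη (by rw [← hn, ← h]; push_cast; ring)
    exact ⟨h1, h2.symm⟩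
  · exact (three_no D.pp hv.two_le D.eps hη (by rw [← hn, ← h]; push_cast; ring)).elim
  · exact (three_no hv D.two_le hη D.eps (by rw [← hn, ← h]; push_cast; ring)).elim
  · obtain ⟨h1, h2⟩ := same D.two_le hv.two_le D.eps hη (by rw [← hn, ← h]; push_cast; ring)
    exact ⟨h1, h2.symm⟩

/-- **`E₆(v)`** -/
theorem row_E6 {F : Type u} [Field F] [Fintype F] (h : Sit D ↥(chevE6.group F)) :
    D.ε = 1 ∧ Fintype.card F = D.q := by
  obtain ⟨v, hv⟩ : ∃ v, Fintype.card F = v := ⟨_, rfl⟩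
  have hvp : IsPrimePow v := by rw [← hv]; exact FiniteField.isPrimePow_card F
  rw [hv]
  refine num_eq hvp (Or.inl rfl) ?_
  rcases H72.F4I.e6_row hv (isoN h) with h1 | h1
  · left
    rw [h1]
    push_cast
    ring
  · right
    have : ((3 * D.n : ℕ) : ℤ) = ((v ^ 6 + v ^ 3 + 1 : ℕ) : ℤ) := by rw [h1]
    push_cast at this
    rw [this]
    ring

/-- **`²E₆(v)`** -/
theorem row_2E6 {K : Type u} [Field K] [Fintype K] {v : ℕ} (hv : IsPrimePow v) (hK : Fintype.card K = v ^ 2)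
    (h : Sit D ↥(twistedE6 K v)) : D.ε = -1 ∧ v = D.q := by
  rcases H72.F4I.te6_row hv hK (isoN h) with (h1 | h1) | ⟨-, h1⟩
  · refine num_eq hv (Or.inr rfl) (Or.inl ?_)
    have : ((D.n + v ^ 3 : ℕ) : ℤ) = ((v ^ 6 + 1 : ℕ) : ℤ) := by rw [h1]
    push_cast at this
    linarith
  · refine num_eq hv (Or.inr rfl) (Or.inr ?_)
    have : ((3 * D.n + v ^ 3 : ℕ) : ℤ) = ((v ^ 6 + 1 : ℕ) : ℤ) := by rw [h1]
    push_cast at this
    linarith
  · exfalso
    rcases h1 with h1 | h1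
    · have := D.prime_n (by norm_num) h1
      omega
    · have := D.prime_n (by norm_num) h1
      omega

end Cfsg.Agent.R2.Spec.X1.E6.I4
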